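import Mathlib
import Cfsg.Agent.KnownA.GL2.SLTorus

/-! # The cuspidal characters of `SL₂` on the non-split torus -/

set_option autoImplicit false
set_option linter.unusedSectionVars false

namespace Cfsg.Agent.KnownA.GL2

open Matrix Cfsg.Agent.Chars
open scoped ComplexConjugate MatrixGroups

/-! ## Finite cyclic groups -/

section cyclic

variable {A : Type*} [CommGroup A] [Finite A] [IsCyclic A]

theorem cyc_card_hom : Nat.card (A →* ℂˣ) = Nat.card A :=
  CommGroup.card_monoidHom_of_hasEnoughRootsOfUnity A ℂ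

theorem cyc_finite_hom : Finite (A →* ℂˣ) :=
  Nat.finite_of_card_ne_zero (by rw [cyc_card_hom]; exact Nat.card_pos.ne')

theorem cyc_card_sq_one : Nat.card {θ : A →* ℂˣ // θ ^ 2 = 1} = Nat.card {a : A // a ^ 2 = 1} := by
  obtain ⟨e⟩ := IsCyclic.monoidHom_equiv_self A ℂ
  refine Nat.card_congr (e.toEquiv.subtypeEquiv fun θ => ?_)
  rw [MulEquiv.toEquiv_eq_coe, EquivLike.coe_coe, ← map_pow, MulEquiv.map_eq_one_iff]

theorem cyc_sep {a : A} (h : a ≠ 1) : ∃ θ : A →* ℂˣ, θ a ≠ 1 :=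
  CommGroup.exists_apply_ne_one_of_hasEnoughRootsOfUnity A ℂ h

theorem cyc_quad_unique {θ θ' : A →* ℂˣ} (h : θ ^ 2 = 1) (h' : θ' ^ 2 = 1) (hne : θ ≠ 1)
    (hne' : θ' ≠ 1) : θ = θ' := by
  obtain ⟨x, hx⟩ := IsCyclic.exists_generator (α := A)
  have key : ∀ φ : A →* ℂˣ, φ ^ 2 = 1 → φ ≠ 1 → φ x = -1 := by
    intro φ h hne
    have h1 : ((φ x : ℂˣ) : ℂ) * (φ x : ℂˣ) = 1 := by
      rw [← Units.val_mul, ← sq, ← MonoidHom.pow_apply, h, MonoidHom.one_apply, Units.val_one]
    rcases mul_self_eq_one_iff.1 h1 with e | e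
    · refine absurd (MonoidHom.ext fun a => ?_) hne
      obtain ⟨n, rfl⟩ := Subgroup.mem_zpowers_iff.1 (hx a)
      rw [map_zpow, show φ x = 1 from Units.ext e, _root_.one_zpow, MonoidHom.one_apply]
    · exact Units.ext e
  refine MonoidHom.ext fun a => ?_
  obtain ⟨n, rfl⟩ := Subgroup.mem_zpowers_iff.1 (hx a)
  rw [map_zpow, map_zpow, key θ h hne, key θ' h' hne']

theorem cyc_sum_hom [Fintype (A →* ℂˣ)] {a : A} (h : a ≠ 1) :
    ∑ θ : A →* ℂˣ, ((θ a : ℂˣ) : ℂ) = 0 := by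
  obtain ⟨μ, hμ⟩ := cyc_sep h
  have h' : ∑ θ : A →* ℂˣ, ((θ a : ℂˣ) : ℂ) = (μ a : ℂˣ) * ∑ θ : A →* ℂˣ, ((θ a : ℂˣ) : ℂ) := by
    rw [Finset.mul_sum]
    exact (Fintype.sum_equiv (Equiv.mulLeft μ) _ _ fun θ => by
      rw [Equiv.coe_mulLeft, MonoidHom.mul_apply, Units.val_mul]).symm
  have h'' : (((μ a : ℂˣ) : ℂ) - 1) * ∑ θ : A →* ℂˣ, ((θ a : ℂˣ) : ℂ) = 0 := by
    linear_combination -h'
  exact (mul_eq_zero.1 h'').resolve_left (sub_ne_zero.2 fun e => hμ (Units.ext e))

theorem cyc_inner_hom [Fintype A] [DecidableEq (A →* ℂˣ)] (θ θ' : A →* ℂˣ) :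
    classInner (fun a => ((θ a : ℂˣ) : ℂ)) (fun a => ((θ' a : ℂˣ) : ℂ)) =
      if θ = θ' then 1 else 0 := by
  split_ifs with h
  · subst h; exact classInner_self_irr (isIrrCharacter_hom θ)
  · exact classInner_irr_of_ne (isIrrCharacter_hom θ) (isIrrCharacter_hom θ') fun e =>
      h (MonoidHom.ext fun a => Units.ext (congrFun e a))

/-- Fourier inversion. -/
theorem cyc_fourier [Fintype A] [Fintype (A →* ℂˣ)] (f : A → ℂ) (a : A) :
    f a = ∑ θ : A →* ℂˣ, classInner f (fun b => ((θ b : ℂˣ) : ℂ)) * ((θ a : ℂˣ) : ℂ) := by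
  classical
  simp only [classInner_def, Finset.mul_sum, Finset.sum_mul]
  rw [Finset.sum_comm]
  have key : ∀ b : A, ∑ θ : A →* ℂˣ, (Nat.card A : ℂ)⁻¹ * (f b * conj ((θ b : ℂˣ) : ℂ)) * (θ a : ℂˣ) =
      (Nat.card A : ℂ)⁻¹ * f b * if b⁻¹ * a = 1 then (Nat.card A : ℂ) else 0 := by
    intro b
    have e : ∀ θ : A →* ℂˣ, (Nat.card A : ℂ)⁻¹ * (f b * conj ((θ b : ℂˣ) : ℂ)) * (θ a : ℂˣ) =
        (Nat.card A : ℂ)⁻¹ * f b * ((θ (b⁻¹ * a) : ℂˣ) : ℂ) := by
      intro θ
      rw [← char_inv_eq_conj (isCharacter_hom θ), map_mul, Units.val_mul]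
      ring
    rw [Finset.sum_congr rfl fun θ _ => e θ, ← Finset.mul_sum]
    congr 1
    split_ifs with h
    · simp only [h, map_one, Units.val_one, Finset.sum_const, Finset.card_univ, nsmul_eq_mul,
        mul_one]
      rw [← Nat.card_eq_fintype_card, cyc_card_hom]
    · exact cyc_sum_hom h
  rw [Finset.sum_congr rfl fun b _ => key b]
  simp only [inv_mul_eq_one, mul_ite, mul_zero, Finset.sum_ite_eq', Finset.mem_univ, if_true]
  have : (Nat.card A : ℂ) ≠ 0 := Nat.cast_ne_zero.2 Nat.card_pos.ne'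
  field_simp

end cyclic

/-! ## The inner product formula -/

variable {F : Type*} [Field F] [Fintype F] [DecidableEq F]

/-- The action of an involutive central element on an irreducible character. -/
theorem exists_omega {χ : SpecialLinearGroup (Fin 2) F → ℂ}
    (h : IsIrrCharacter (SpecialLinearGroup (Fin 2) F) χ) :
    ∃ ω : ℂ, (ω = 1 ∨ ω = -1) ∧ ∀ g, χ (-1 * g) = ω * χ g := by
  obtain ⟨n, ρ, hi, rfl⟩ := h
  obtain ⟨ω, hω⟩ := scalar_of_commute ρ (ρ (-1)) fun g => by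
    rw [← map_mul, ← map_mul]; congr 1; simp
  have hv : ∀ g, ρ.character (-1 * g) = ω * ρ.character g := fun g => by
    show LinearMap.trace ℂ _ (ρ (-1 * g)) = ω * LinearMap.trace ℂ _ (ρ g)
    rw [map_mul, hω, smul_mul_assoc, one_mul, map_smul, smul_eq_mul]
  refine ⟨ω, ?_, hv⟩
  have h2 := hv (-1)
  rw [show (-1 : SpecialLinearGroup (Fin 2) F) * -1 = 1 by simp,
    show (-1 : SpecialLinearGroup (Fin 2) F) = -1 * 1 by simp, hv 1, ← mul_assoc] at h2
  have hne : ρ.character 1 ≠ 0 := irr_apply_one_ne_zero ⟨n, ρ, hi, rfl⟩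
  have : ω * ω = 1 := mul_right_cancel₀ hne (by rw [← h2, one_mul])
  exact mul_self_eq_one_iff.1 this

theorem jS_neg_one {f : SpecialLinearGroup (Fin 2) F → ℂ} (h : ∀ g, f (-1 * g) = f g) :
    jS f (-1) = jS f 1 := by
  refine Fintype.sum_equiv (Equiv.neg F) _ _ fun c => ?_
  rw [Equiv.neg_apply, show bS (-1 : Fˣ) c = -1 * bS 1 (-c) from ?_, h]
  rw [← bS_neg_one, bS_mul]
  simp

theorem sum_mS_mul {f h : SpecialLinearGroup (Fin 2) F → ℂ} :
    ∑ c : F, f (bS 1 c) * conj (h (bS 1 c)) =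
      (Fintype.card F : ℂ) * ∑ t : F, mS f t * conj (mS h t) := by
  have e : ∀ t : F, (Fintype.card F : ℂ) * conj (mS h t) =
      ∑ c : F, conj (h (bS 1 c)) * psi F (t * c) := by
    intro t
    rw [mS_def, map_mul, map_inv₀, Complex.conj_natCast, ← mul_assoc,
      mul_inv_cancel₀ (Nat.cast_ne_zero.2 Fintype.card_ne_zero), one_mul, map_sum]
    exact Finset.sum_congr rfl fun c _ => by rw [map_mul, Complex.conj_conj]
  rw [Finset.mul_sum,
    Finset.sum_congr rfl (g := fun c => (∑ t : F, mS f t * psi F (t * c)) * conj (h (bS 1 c)))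
      fun c _ => by rw [← sum_mS]]
  simp only [Finset.sum_mul]
  rw [Finset.sum_comm]
  refine Finset.sum_congr rfl fun t _ => ?_
  rw [mul_left_comm, e, Finset.mul_sum]
  exact Finset.sum_congr rfl fun c _ => by ring

theorem sum_mS_cusp (hodd : Odd (Fintype.card F)) {f h : SpecialLinearGroup (Fin 2) F → ℂ}
    (hf : IsCuspS f) (hh : IsCuspS h) :
    ∑ t : F, mS f t * conj (mS h t) = ((Fintype.card F : ℂ) - 1) / 2 *
      (mS f 1 * mS h 1 + mS f (nu F : Fˣ) * mS h (nu F : Fˣ)) := by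
  have hreal : ∀ t : F, conj (mS h t) = mS h t := fun t => by
    obtain ⟨k, hk⟩ := exists_mS_eq_nat (isCharacter_of_isIrr hh.1) t
    rw [hk, Complex.conj_natCast]
  have hfc := isClassFunction_of_isCharacter (isCharacter_of_isIrr hf.1)
  have hhc := isClassFunction_of_isCharacter (isCharacter_of_isIrr hh.1)
  have e : ∀ t : F, mS f t * conj (mS h t) =
      (if t = 0 then -((mS f 1 * mS h 1 + mS f (nu F : Fˣ) * mS h (nu F : Fˣ)) / 2) else 0) +
      ((mS f 1 * mS h 1 + mS f (nu F : Fˣ) * mS h (nu F : Fˣ)) / 2 +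
      (mS f 1 * mS h 1 - mS f (nu F : Fˣ) * mS h (nu F : Fˣ)) / 2 * qc F t) := by
    intro t
    rw [hreal]
    split_ifs with ht
    · subst ht
      rw [hf.mS_zero, MulChar.map_zero]
      ring
    · rw [mS_eq hfc ht, mS_eq hhc ht]
      have hq : qc F t * qc F t = 1 := by
        by_cases hs : IsSquare t
        · rw [qc_of_isSquare ht hs, one_mul]
        · rw [qc_of_not_isSquare hs]; norm_num
      linear_combination ((mS f 1 - mS f (nu F : Fˣ)) * (mS h 1 - mS h (nu F : Fˣ)) / 4) * hq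
  rw [Finset.sum_congr rfl fun t _ => e t, Finset.sum_add_distrib, Finset.sum_add_distrib,
    ← Finset.mul_sum, MulChar.sum_eq_zero_of_ne_one (qc_ne_one hodd), Finset.sum_const,
    Finset.card_univ, nsmul_eq_mul]
  simp only [Finset.sum_ite_eq', Finset.mem_univ, if_true]
  ring

variable {C : Subgroup (SpecialLinearGroup (Fin 2) F)}

open scoped Classical in
theorem sum_split_center (hodd : Odd (Fintype.card F)) (hcard : Nat.card C = Fintype.card F + 1)
    (f : C → ℂ) :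
    ∑ c : C, f c = f 1 + f ⟨-1, neg_one_mem hodd hcard⟩ +
      ∑ c : C, (if IsScalar (c : SpecialLinearGroup (Fin 2) F).1 then 0 else f c) := by
  have hne : (1 : C) ≠ ⟨-1, neg_one_mem hodd hcard⟩ := fun e =>
    neg_one_ne_one hodd (congrArg Subtype.val e).symm
  rw [← Finset.sum_pair (f := f) hne,
    show ({1, ⟨-1, neg_one_mem hodd hcard⟩} : Finset C) =
      Finset.univ.filter fun c : C => IsScalar (c : SpecialLinearGroup (Fin 2) F).1 from ?_,
    Finset.sum_filter, ← Finset.sum_add_distrib]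
  · exact Finset.sum_congr rfl fun c _ => by split_ifs <;> ring
  · ext c
    simp only [Finset.mem_insert, Finset.mem_singleton, Finset.mem_filter, Finset.mem_univ, true_and,
      scalar_iff]
    constructor
    · rintro (rfl | rfl)
      · exact Or.inl rfl
      · exact Or.inr rfl
    · rintro (e | e)
      · exact Or.inl (Subtype.ext e)
      · exact Or.inr (Subtype.ext e)

/-- The cuspidal degree. -/
theorem cusp_apply_one (hodd : Odd (Fintype.card F)) {f : SpecialLinearGroup (Fin 2) F → ℂ}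
    (hf : IsCuspS f) :
    f 1 = ((Fintype.card F : ℂ) - 1) / 2 * (mS f 1 + mS f (nu F : Fˣ)) := by
  rw [apply_one_mS (isClassFunction_of_isCharacter (isCharacter_of_isIrr hf.1)) hodd, hf.mS_zero]
  ring

theorem card_C_cast (hcard : Nat.card C = Fintype.card F + 1) :
    (Nat.card C : ℂ) = (Fintype.card F : ℂ) + 1 := by
  rw [hcard]; push_cast; rfl

open scoped Classical in
/-- The inner product on the torus. -/
theorem inner_torus (hodd : Odd (Fintype.card F)) [IsMulCommutative C]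
    (hcard : Nat.card C = Fintype.card F + 1) {f h : SpecialLinearGroup (Fin 2) F → ℂ}
    (hf : IsCuspS f) (hh : IsCuspS h) {ω : ℂ} (hω : ω = 1 ∨ ω = -1)
    (hfω : ∀ g, f (-1 * g) = ω * f g) (hhω : ∀ g, h (-1 * g) = ω * h g) :
    classInner (fun c : C => f c) (fun c : C => h c) =
      2 * (classInner f h - (mS f 1 * mS h 1 + mS f (nu F : Fˣ) * mS h (nu F : Fˣ))) +
        ((Fintype.card F : ℂ) - 1) / 2 * (mS f 1 + mS f (nu F : Fˣ)) *
          (mS h 1 + mS h (nu F : Fˣ)) := by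
  set P : SpecialLinearGroup (Fin 2) F → ℂ := fun g => f g * conj (h g) with hP
  have hfc := isClassFunction_of_isCharacter (isCharacter_of_isIrr hf.1)
  have hhc := isClassFunction_of_isCharacter (isCharacter_of_isIrr hh.1)
  have hPc : IsClassFunction (SpecialLinearGroup (Fin 2) F) P := fun a b => by
    simp only [hP, hfc a b, hhc a b]
  have hPz : ∀ g, P (-1 * g) = P g := fun g => by
    simp only [hP, hfω, hhω, map_mul]
    rcases hω with rfl | rfl <;> simp
  have hj : jS P 1 = (Fintype.card F : ℂ) * (((Fintype.card F : ℂ) - 1) / 2 *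
      (mS f 1 * mS h 1 + mS f (nu F : Fˣ) * mS h (nu F : Fˣ))) := by
    rw [← sum_mS_cusp hodd hf hh, ← sum_mS_mul]
    rfl
  have hsum := sum_formula hodd hcard hPc (fun a c ha => by
    show f (bS a c) * conj (h (bS a c)) = 0
    rw [hf.split ha c, zero_mul])
  have hC := sum_split_center hodd hcard (fun c : C => P c)
  have hd : conj (h 1) = h 1 := irr_apply_one_conj (isCharacter_of_isIrr hh.1)
  have hPm : P (-1) = P 1 := by
    have e := hPz 1
    rwa [mul_one] at e
  have hCz : ∑ c : C, (if IsScalar (c : SpecialLinearGroup (Fin 2) F).1 then 0 else P c) =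
      ∑ c : C, P c - 2 * P 1 := by
    rw [hC]
    simp only [OneMemClass.coe_one, hPm]
    ring
  rw [jS_neg_one hPz, hj, hPm, hCz] at hsum
  have hP1 : P 1 = ((Fintype.card F : ℂ) - 1) / 2 * (mS f 1 + mS f (nu F : Fˣ)) *
      (((Fintype.card F : ℂ) - 1) / 2 * (mS h 1 + mS h (nu F : Fˣ))) := by
    show f 1 * conj (h 1) = _
    rw [hd, cusp_apply_one hodd hf, cusp_apply_one hodd hh]
  have hG : ∑ g : SpecialLinearGroup (Fin 2) F, P g =
      (Fintype.card F : ℂ) * ((Fintype.card F : ℂ) - 1) * ((Fintype.card F : ℂ) + 1) *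
        classInner f h := by
    have hc : (Nat.card (SpecialLinearGroup (Fin 2) F) : ℂ) =
        (Fintype.card F : ℂ) * ((Fintype.card F : ℂ) - 1) * ((Fintype.card F : ℂ) + 1) := by
      rw [Linear.card_SL_two, Nat.cast_mul, Nat.cast_sub (Nat.one_le_pow _ _ Fintype.card_pos)]
      push_cast; ring
    rw [← hc, classInner_def, ← mul_assoc, mul_inv_cancel₀ card_ne_zero, one_mul]
  have hne : (Fintype.card F : ℂ) + 1 ≠ 0 := by exact_mod_cast Nat.succ_ne_zero (Fintype.card F)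
  rw [hG, hP1] at hsum
  rw [classInner_def, card_C_cast hcard, inv_mul_eq_iff_eq_mul₀ hne]
  show ∑ c : C, P c = _
  apply mul_left_cancel₀ (mul_ne_zero (Nat.cast_ne_zero.2 (Fintype.card_ne_zero (α := F)))
    (two_sub_one_ne_zero (F := F)))
  linear_combination -hsum

open scoped Classical in
/-- The multiplicity of the trivial character of the torus. -/
theorem inner_torus_one (hodd : Odd (Fintype.card F)) [IsMulCommutative C]
    (hcard : Nat.card C = Fintype.card F + 1) {f : SpecialLinearGroup (Fin 2) F → ℂ}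
    (hf : IsCuspS f) {ω : ℂ} (hfω : ∀ g, f (-1 * g) = ω * f g) :
    classInner (fun c : C => f c) (fun c : C => (((1 : C →* ℂˣ) c : ℂˣ) : ℂ)) =
      (1 + ω) * (mS f 1 + mS f (nu F : Fˣ)) / 2 := by
  have hsum := sum_formula hodd hcard (isClassFunction_of_isCharacter (isCharacter_of_isIrr hf.1))
    (fun a c ha => hf.split ha c)
  have h0 : ∑ g : SpecialLinearGroup (Fin 2) F, f g = 0 := by
    have h := hf.inner_one
    rw [classInner_def, mul_eq_zero, or_iff_right (inv_ne_zero card_ne_zero)] at h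
    simpa using h
  have hC := sum_split_center hodd hcard (fun c : C => f c)
  have hm : f (-1) = ω * f 1 := by
    have e := hfω 1
    rwa [mul_one] at e
  simp only [OneMemClass.coe_one, hm] at hC
  rw [hf.jS_eq_zero, hf.jS_eq_zero, h0, hm,
    show ∑ c : C, (if IsScalar (c : SpecialLinearGroup (Fin 2) F).1 then 0 else f c) =
      ∑ c : C, f c - (f 1 + ω * f 1) by rw [hC]; ring, cusp_apply_one hodd hf] at hsum
  have hne : (Fintype.card F : ℂ) + 1 ≠ 0 := by exact_mod_cast Nat.succ_ne_zero (Fintype.card F)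
  rw [classInner_def, card_C_cast hcard, inv_mul_eq_iff_eq_mul₀ hne]
  simp only [MonoidHom.one_apply, Units.val_one, map_one, mul_one]
  apply mul_left_cancel₀ (mul_ne_zero (Nat.cast_ne_zero.2 (Fintype.card_ne_zero (α := F)))
    (two_sub_one_ne_zero (F := F)))
  linear_combination -hsum

/-! ## The restriction to the torus -/

/-- The central involution in the torus. -/
def zC (hodd : Odd (Fintype.card F)) (hcard : Nat.card C = Fintype.card F + 1) : C :=
  ⟨-1, neg_one_mem hodd hcard⟩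

theorem zC_sq (hodd : Odd (Fintype.card F)) (hcard : Nat.card C = Fintype.card F + 1) :
    zC hodd hcard * zC hodd hcard = 1 := Subtype.ext (by simp [zC])

theorem theta_z (hodd : Odd (Fintype.card F)) (hcard : Nat.card C = Fintype.card F + 1)
    (θ : C →* ℂˣ) : ((θ (zC hodd hcard) : ℂˣ) : ℂ) = 1 ∨ ((θ (zC hodd hcard) : ℂˣ) : ℂ) = -1 := by
  apply mul_self_eq_one_iff.1
  rw [← Units.val_mul, ← map_mul, zC_sq, map_one, Units.val_one]

open scoped Classical in
/-- The sum of the characters of one parity. -/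
theorem parity_sum (hC : IsCyclic C) (hodd : Odd (Fintype.card F))
    (hcard : Nat.card C = Fintype.card F + 1) [Fintype (C →* ℂˣ)] {ω : ℂ} (hω : ω = 1 ∨ ω = -1)
    (c : C) :
    2 * ∑ θ : C →* ℂˣ, (if ((θ (zC hodd hcard) : ℂˣ) : ℂ) = ω then ((θ c : ℂˣ) : ℂ) else 0) =
      (if c = 1 then ((Fintype.card F : ℂ) + 1) else 0) +
        ω * (if c * zC hodd hcard = 1 then ((Fintype.card F : ℂ) + 1) else 0) := by
  letI : CommGroup C := hC.commGroup
  have key : ∀ a : C, ∑ θ : C →* ℂˣ, ((θ a : ℂˣ) : ℂ) =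
      if a = 1 then ((Fintype.card F : ℂ) + 1) else 0 := by
    intro a
    split_ifs with h
    · subst h
      simp only [map_one, Units.val_one, Finset.sum_const, Finset.card_univ, nsmul_eq_mul, mul_one]
      rw [← Nat.card_eq_fintype_card, cyc_card_hom, hcard]
      push_cast; rfl
    · exact cyc_sum_hom h
  rw [← key, ← key, Finset.mul_sum, Finset.mul_sum, ← Finset.sum_add_distrib]
  refine Finset.sum_congr rfl fun θ _ => ?_
  rw [map_mul, Units.val_mul]
  rcases theta_z hodd hcard θ with e | e <;> rcases hω with rfl | rfl <;> rw [e] <;>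
    norm_num <;> ring

/-- The data of a cuspidal character on the torus. -/
theorem torus_data (hC : IsCyclic C) (hodd : Odd (Fintype.card F))
    (hcard : Nat.card C = Fintype.card F + 1) [Fintype (C →* ℂˣ)]
    {f : SpecialLinearGroup (Fin 2) F → ℂ} (hf : IsCuspS f) :
    ∃ ω : ℂ, ∃ m : (C →* ℂˣ) → ℕ, (ω = 1 ∨ ω = -1) ∧ (∀ g, f (-1 * g) = ω * f g) ∧
      (∀ θ, ((θ (zC hodd hcard) : ℂˣ) : ℂ) ≠ ω → m θ = 0) ∧
      (∀ θ, m θ⁻¹ = m θ) ∧
      ((m 1 : ℂ) = (1 + ω) * (mS f 1 + mS f (nu F : Fˣ)) / 2) ∧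
      (∀ c : C, f c = ∑ θ : C →* ℂˣ, (m θ : ℂ) * ((θ c : ℂˣ) : ℂ)) ∧
      ((∑ θ : C →* ℂˣ, m θ * m θ : ℕ) : ℂ) =
        2 * (1 - (mS f 1 * mS f 1 + mS f (nu F : Fˣ) * mS f (nu F : Fˣ))) +
          ((Fintype.card F : ℂ) - 1) / 2 * (mS f 1 + mS f (nu F : Fˣ)) *
            (mS f 1 + mS f (nu F : Fˣ)) := by
  classical
  letI : CommGroup C := hC.commGroup
  haveI : IsMulCommutative C := ⟨⟨mul_comm⟩⟩
  obtain ⟨ω, hω, hfω⟩ := exists_omega hf.1
  have hch : IsCharacter C (fun c : C => f c) := isCharacter_restrict (isCharacter_of_isIrr hf.1) C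
  have hfc := isClassFunction_of_isCharacter (isCharacter_of_isIrr hf.1)
  choose m hm using fun θ : C →* ℂˣ => exists_classInner_eq_nat hch (isCharacter_hom θ)
  have four : ∀ c : C, f c = ∑ θ : C →* ℂˣ, (m θ : ℂ) * ((θ c : ℂˣ) : ℂ) := fun c => by
    rw [cyc_fourier (fun c : C => f c) c]
    exact Finset.sum_congr rfl fun θ _ => by rw [hm]
  refine ⟨ω, m, hω, hfω, fun θ hθ => ?_, fun θ => ?_, ?_, four, ?_⟩
  · have h2 : classInner (fun c : C => f c) (fun c : C => ((θ c : ℂˣ) : ℂ)) =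
        ω * conj ((θ (zC hodd hcard) : ℂˣ) : ℂ) *
          classInner (fun c : C => f c) (fun c : C => ((θ c : ℂˣ) : ℂ)) := by
      simp only [classInner_def, Finset.mul_sum]
      refine (Fintype.sum_equiv (Equiv.mulLeft (zC hodd hcard)) _ _ fun c => ?_).symm
      rw [Equiv.coe_mulLeft, map_mul, Units.val_mul, map_mul,
        show ((zC hodd hcard * c : C) : SpecialLinearGroup (Fin 2) F) =
          -1 * (c : SpecialLinearGroup (Fin 2) F) from rfl, hfω]
      ring
    rw [hm] at h2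
    have h3 : (1 - ω * conj ((θ (zC hodd hcard) : ℂˣ) : ℂ)) * (m θ : ℂ) = 0 := by
      linear_combination h2
    rcases mul_eq_zero.1 h3 with e | e
    · exfalso
      apply hθ
      rcases theta_z hodd hcard θ with e' | e' <;> rcases hω with rfl | rfl <;>
        rw [e'] at e ⊢ <;> simp at e ⊢
    · exact_mod_cast e
  · have h2 : classInner (fun c : C => f c) (fun c : C => (((θ⁻¹ : C →* ℂˣ) c : ℂˣ) : ℂ)) =
        classInner (fun c : C => f c) (fun c : C => ((θ c : ℂˣ) : ℂ)) := by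
      simp only [classInner_def]
      congr 1
      refine Fintype.sum_equiv (Equiv.inv C) _ _ fun c => ?_
      rw [Equiv.inv_apply, map_inv θ, MonoidHom.inv_apply]
      congr 1
      rw [InvMemClass.coe_inv]
      by_cases hs : IsScalar (c : SpecialLinearGroup (Fin 2) F).1
      · rcases (scalar_iff _).1 hs with e | e <;> rw [e]
        · rw [inv_one]
        · congr 1
          rw [eq_inv_iff_mul_eq_one]; simp
      · obtain ⟨x, hx⟩ := isConj_iff.1 (isConj_inv hodd hcard c.2 hs)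
        rw [← hx, hfc]
    rw [hm, hm] at h2
    exact_mod_cast h2
  · rw [← hm, inner_torus_one hodd hcard hf hfω]
  · have hit := inner_torus hodd hcard hf hf hω hfω hfω
    rw [classInner_self_irr hf.1] at hit
    rw [← hit,
      show (fun c : C => f c) = ∑ θ : C →* ℂˣ, (m θ : ℂ) • fun c : C => ((θ c : ℂˣ) : ℂ) from
        funext fun c => by rw [four, Finset.sum_apply]; simp]
    rw [classInner_sum_left]
    simp only [classInner_smul_left, classInner_sum_right, classInner_smul_right, cyc_inner_hom,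
      mul_ite, mul_one, mul_zero, Finset.sum_ite_eq, Finset.mem_univ, if_true]
    push_cast
    simp

open scoped Classical in
theorem card_parity (hC : IsCyclic C) (hodd : Odd (Fintype.card F))
    (hcard : Nat.card C = Fintype.card F + 1) [Fintype (C →* ℂˣ)] {ω : ℂ} (hω : ω = 1 ∨ ω = -1) :
    2 * (Finset.univ.filter fun θ : C →* ℂˣ => ((θ (zC hodd hcard) : ℂˣ) : ℂ) = ω).card =
      Fintype.card F + 1 := by
  have h := parity_sum hC hodd hcard hω (1 : C)
  have hz : (1 : C) * zC hodd hcard ≠ 1 := by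
    rw [one_mul]
    exact fun e => neg_one_ne_one hodd (congrArg Subtype.val e)
  rw [if_pos rfl, if_neg hz, mul_zero, add_zero, ← Finset.sum_filter] at h
  simp only [map_one, Units.val_one, Finset.sum_const, nsmul_eq_mul, mul_one] at h
  exact_mod_cast h

open scoped Classical in
theorem parity_sum_noncentral (hC : IsCyclic C) (hodd : Odd (Fintype.card F))
    (hcard : Nat.card C = Fintype.card F + 1) [Fintype (C →* ℂˣ)] {ω : ℂ} (hω : ω = 1 ∨ ω = -1)
    {c : C} (hc : ¬ IsScalar (c : SpecialLinearGroup (Fin 2) F).1) :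
    ∑ θ ∈ Finset.univ.filter (fun θ : C →* ℂˣ => ((θ (zC hodd hcard) : ℂˣ) : ℂ) = ω),
      ((θ c : ℂˣ) : ℂ) = 0 := by
  have h := parity_sum hC hodd hcard hω c
  rw [if_neg, if_neg, mul_zero, add_zero, ← Finset.sum_filter] at h
  · exact (mul_eq_zero.1 h).resolve_left two_ne_zero
  · intro e
    apply hc
    rw [eq_inv_of_mul_eq_one_left e, inv_eq_of_mul_eq_one_right (zC_sq hodd hcard)]
    exact isScalar_one_neg (Or.inr rfl)
  · rintro rfl
    exact hc (isScalar_one_neg (Or.inl rfl))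

/-- The small cuspidal characters on the torus. -/
theorem KC.torus (hC : IsCyclic C) (hcard : Nat.card C = Fintype.card F + 1)
    {f : SpecialLinearGroup (Fin 2) F → ℂ} (hf : KC f) :
    ∃ θ₀ : C →* ℂˣ, θ₀ ^ 2 = 1 ∧ θ₀ ≠ 1 ∧
      ∀ c : C, ¬ IsScalar (c : SpecialLinearGroup (Fin 2) F).1 → f c = -((θ₀ c : ℂˣ) : ℂ) := by
  classical
  have hodd := hf.odd
  letI : CommGroup C := hC.commGroup
  haveI : Finite (C →* ℂˣ) := cyc_finite_hom
  letI : Fintype (C →* ℂˣ) := Fintype.ofFinite _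
  obtain ⟨ω, m, hω, hfω, hzero, hsymm, h1, four, hsq⟩ := torus_data hC hodd hcard hf.1
  have hσ : mS f 1 + mS f (nu F : Fˣ) = 1 ∧
      mS f 1 * mS f 1 + mS f (nu F : Fˣ) * mS f (nu F : Fˣ) = 1 := by
    rcases hf.1.types with ⟨a, b⟩ | ⟨a, b⟩ | ⟨a, b⟩
    · exact absurd (a.trans b.symm) hf.2
    · rw [a, b]; norm_num
    · rw [a, b]; norm_num
  rw [hσ.1] at h1
  rw [hσ.2, hσ.1] at hsq
  set P := Finset.univ.filter fun θ : C →* ℂˣ => ((θ (zC hodd hcard) : ℂˣ) : ℂ) = ω with hP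
  have hsum : 2 * ∑ θ : C →* ℂˣ, m θ + 1 = Fintype.card F := by
    have h := four 1
    rw [show f ((1 : C) : SpecialLinearGroup (Fin 2) F) = f 1 from rfl,
      cusp_apply_one hodd hf.1, hσ.1] at h
    simp only [map_one, Units.val_one, mul_one] at h
    rw [← Nat.cast_sum] at h
    have h' : ((2 * ∑ θ : C →* ℂˣ, m θ + 1 : ℕ) : ℂ) = Fintype.card F := by
      rw [Nat.cast_add, Nat.cast_mul, ← h, Nat.cast_two, Nat.cast_one]; ring
    exact_mod_cast h'
  have hsq' : 2 * ∑ θ : C →* ℂˣ, m θ * m θ + 1 = Fintype.card F := by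
    have h' : ((2 * ∑ θ : C →* ℂˣ, m θ * m θ + 1 : ℕ) : ℂ) = Fintype.card F := by
      rw [Nat.cast_add, Nat.cast_mul, hsq, Nat.cast_two, Nat.cast_one]; ring
    exact_mod_cast h'
  have hle : ∀ θ, m θ ≤ 1 := by
    intro θ
    by_contra hc
    have hlt : ∑ θ : C →* ℂˣ, m θ < ∑ θ : C →* ℂˣ, m θ * m θ :=
      Finset.sum_lt_sum (fun θ _ => Nat.le_mul_self _) ⟨θ, Finset.mem_univ _, by
        nlinarith [show 2 ≤ m θ by omega]⟩
    omega
  have hZ : ((P.filter fun θ => m θ = 0)).card = 1 := by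
    have e : ∑ θ : C →* ℂˣ, m θ + (P.filter fun θ => m θ = 0).card = P.card := by
      rw [← Finset.sum_subset (Finset.subset_univ P) (fun θ _ hθ => hzero θ (by simpa [P] using hθ)),
        Finset.card_filter, ← Finset.sum_add_distrib, Finset.card_eq_sum_ones]
      refine Finset.sum_congr rfl fun θ _ => ?_
      have := hle θ
      split_ifs <;> omega
    have := card_parity hC hodd hcard hω
    simp only [P] at *
    omega
  obtain ⟨θ₀, hθ₀⟩ := Finset.card_eq_one.1 hZ
  have hmem : θ₀ ∈ P.filter fun θ => m θ = 0 := hθ₀ ▸ Finset.mem_singleton_self θ₀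
  obtain ⟨hP0, hm0⟩ := Finset.mem_filter.1 hmem
  have hP0' : ((θ₀ (zC hodd hcard) : ℂˣ) : ℂ) = ω := (Finset.mem_filter.1 hP0).2
  have hinv : θ₀⁻¹ = θ₀ := by
    have : θ₀⁻¹ ∈ P.filter fun θ => m θ = 0 := by
      simp only [P, Finset.mem_filter, Finset.mem_univ, true_and, hsymm, hm0, and_true,
        MonoidHom.inv_apply, ← map_inv, inv_eq_of_mul_eq_one_right (zC_sq hodd hcard)]
      exact hP0'
    rw [hθ₀, Finset.mem_singleton] at this
    exact this
  refine ⟨θ₀, by rw [sq]; exact mul_eq_one_iff_eq_inv.2 hinv.symm, fun e => ?_, fun c hc => ?_⟩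
  · subst e
    rw [MonoidHom.one_apply, Units.val_one] at hP0'
    rw [← hP0', hm0] at h1
    norm_num at h1
  · have hs := parity_sum_noncentral hC hodd hcard hω hc
    rw [four, ← Finset.sum_subset (Finset.subset_univ P) (fun θ _ hθ => by
      rw [hzero θ (by simpa [P] using hθ), Nat.cast_zero, zero_mul]),
      ← add_eq_zero_iff_eq_neg]
    rw [← hs, show ((θ₀ c : ℂˣ) : ℂ) = ∑ θ ∈ P, (if θ = θ₀ then ((θ c : ℂˣ) : ℂ) else 0) by
      rw [Finset.sum_ite_eq' P θ₀, if_pos hP0], ← Finset.sum_add_distrib]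
    refine Finset.sum_congr rfl fun θ hθ => ?_
    by_cases e : θ = θ₀
    · subst e; rw [hm0, if_pos rfl, Nat.cast_zero, zero_mul, zero_add]
    · have : m θ ≠ 0 := fun h0 => e (Finset.mem_singleton.1 (hθ₀ ▸ Finset.mem_filter.2 ⟨hθ, h0⟩))
      have := hle θ
      rw [show m θ = 1 by omega, if_neg e, Nat.cast_one, one_mul, add_zero]

/-- The big cuspidal characters on the torus. -/
theorem KB.torus (hC : IsCyclic C) (hodd : Odd (Fintype.card F))
    (hcard : Nat.card C = Fintype.card F + 1) {f : SpecialLinearGroup (Fin 2) F → ℂ} (hf : KB f) :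
    ∃ θ : C →* ℂˣ, θ ^ 2 ≠ 1 ∧
      (∀ g, f (-1 * g) = ((θ (zC hodd hcard) : ℂˣ) : ℂ) * f g) ∧
      ∀ c : C, ¬ IsScalar (c : SpecialLinearGroup (Fin 2) F).1 →
        f c = -(((θ c : ℂˣ) : ℂ) + ((θ c : ℂˣ)⁻¹ : ℂˣ)) := by
  classical
  letI : CommGroup C := hC.commGroup
  haveI : Finite (C →* ℂˣ) := cyc_finite_hom
  letI : Fintype (C →* ℂˣ) := Fintype.ofFinite _
  obtain ⟨ω, m, hω, hfω, hzero, hsymm, h1, four, hsq⟩ := torus_data hC hodd hcard hf.1
  rw [hf.2.1, hf.2.2] at h1 hsq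
  set P := Finset.univ.filter fun θ : C →* ℂˣ => ((θ (zC hodd hcard) : ℂˣ) : ℂ) = ω with hP
  have hout : ∀ θ ∉ P, m θ = 0 := fun θ hθ => hzero θ (by simpa [P] using hθ)
  have hsum : ∑ θ ∈ P, m θ + 1 = Fintype.card F := by
    have h := four 1
    rw [show f ((1 : C) : SpecialLinearGroup (Fin 2) F) = f 1 from rfl,
      cusp_apply_one hodd hf.1, hf.2.1, hf.2.2] at h
    simp only [map_one, Units.val_one, mul_one] at h
    rw [← Nat.cast_sum] at h
    rw [Finset.sum_subset (Finset.subset_univ P) fun θ _ hθ => hout θ hθ]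
    have h' : ((∑ θ : C →* ℂˣ, m θ + 1 : ℕ) : ℂ) = Fintype.card F := by
      rw [Nat.cast_add, ← h, Nat.cast_one]; ring
    exact_mod_cast h'
  have hsq' : ∑ θ ∈ P, m θ * m θ + 4 = 2 * Fintype.card F := by
    rw [Finset.sum_subset (Finset.subset_univ P) fun θ _ hθ => by rw [hout θ hθ, zero_mul]]
    have h' : ((∑ θ : C →* ℂˣ, m θ * m θ + 4 : ℕ) : ℂ) = ((2 * Fintype.card F : ℕ) : ℂ) := by
      rw [Nat.cast_add, hsq]; push_cast; ring
    exact_mod_cast h'
  have hPc : 2 * P.card = Fintype.card F + 1 := card_parity hC hodd hcard hω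
  set e : (C →* ℂˣ) → ℤ := fun θ => 2 - (m θ : ℤ) with he
  have hPc' : 2 * (P.card : ℤ) = Fintype.card F + 1 := by exact_mod_cast hPc
  have hsum' : ∑ θ ∈ P, (m θ : ℤ) + 1 = Fintype.card F := by exact_mod_cast hsum
  have hsq'' : ∑ θ ∈ P, (m θ : ℤ) * m θ + 4 = 2 * Fintype.card F := by exact_mod_cast hsq'
  have he1 : ∑ θ ∈ P, e θ = 2 := by
    simp only [he, Finset.sum_sub_distrib, Finset.sum_const, nsmul_eq_mul]
    linarith
  have he2 : ∑ θ ∈ P, (e θ * e θ - e θ) = 0 := by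
    have : ∀ θ, e θ * e θ - e θ = (m θ : ℤ) * m θ - 3 * m θ + 2 := fun θ => by simp only [he]; ring
    simp only [this, Finset.sum_add_distrib, Finset.sum_sub_distrib, Finset.sum_const, nsmul_eq_mul,
      ← Finset.mul_sum]
    linarith
  have he01 : ∀ θ ∈ P, e θ = 0 ∨ e θ = 1 := by
    intro θ hθ
    have hnn : ∀ x : ℤ, 0 ≤ x * x - x := fun x => by
      rcases le_or_gt x 0 with h | h
      · nlinarith
      · nlinarith [mul_nonneg h.le (show 0 ≤ x - 1 by omega)]
    have := (Finset.sum_eq_zero_iff_of_nonneg fun θ _ => hnn (e θ)).1 he2 θ hθ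
    rcases mul_eq_zero.1 (show e θ * (e θ - 1) = 0 by linarith) with h | h
    · exact Or.inl h
    · exact Or.inr (by linarith)
  have hZ : (P.filter fun θ => e θ = 1).card = 2 := by
    have h : ∑ θ ∈ P, e θ = ((P.filter fun θ => e θ = 1).card : ℤ) := by
      rw [Finset.card_filter, Nat.cast_sum]
      refine Finset.sum_congr rfl fun θ hθ => ?_
      rcases he01 θ hθ with h | h <;> simp [h]
    rw [he1] at h
    exact_mod_cast h.symm
  obtain ⟨θ₁, θ₂, hne, hset⟩ := Finset.card_eq_two.1 hZ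
  have hmem : ∀ θ, θ = θ₁ ∨ θ = θ₂ → θ ∈ P ∧ e θ = 1 := fun θ hθ => by
    have : θ ∈ P.filter fun θ => e θ = 1 := by rw [hset]; simpa using hθ
    exact Finset.mem_filter.1 this
  have hinvmem : ∀ θ, θ = θ₁ ∨ θ = θ₂ → θ⁻¹ = θ₁ ∨ θ⁻¹ = θ₂ := by
    intro θ hθ
    obtain ⟨hP', he'⟩ := hmem θ hθ
    have : θ⁻¹ ∈ P.filter fun θ => e θ = 1 := by
      simp only [he] at he'
      simp only [P, he, Finset.mem_filter, Finset.mem_univ, true_and, hsymm, he', and_true,
        MonoidHom.inv_apply, ← map_inv, inv_eq_of_mul_eq_one_right (zC_sq hodd hcard)]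
      exact (Finset.mem_filter.1 hP').2
    rw [hset] at this
    simpa using this
  have hne1 : ∀ θ, θ = θ₁ ∨ θ = θ₂ → θ ≠ 1 := by
    rintro θ hθ rfl
    obtain ⟨hP', he'⟩ := hmem 1 hθ
    have hω1 : ω = 1 := by simpa [P] using (Finset.mem_filter.1 hP').2.symm
    rw [hω1] at h1
    have : m 1 = 2 := by
      have h' : ((m 1 : ℕ) : ℂ) = ((2 : ℕ) : ℂ) := by rw [h1]; norm_num
      exact_mod_cast h'
    simp [he, this] at he'
  have hsq1 : θ₁ ^ 2 ≠ 1 := by
    intro h2
    have hi : θ₁⁻¹ = θ₁ := MonoidHom.ext fun c => by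
      have h3 := congrArg (fun φ : C →* ℂˣ => φ c) h2
      simp only [MonoidHom.pow_apply, sq, MonoidHom.one_apply] at h3
      rw [MonoidHom.inv_apply]
      exact inv_eq_of_mul_eq_one_right h3
    rcases hinvmem θ₂ (Or.inr rfl) with e2 | e2
    · exact hne (inv_injective (hi.trans e2.symm))
    · exact hne (cyc_quad_unique h2 (by rw [sq]; exact mul_eq_one_iff_eq_inv.2 e2.symm)
        (hne1 _ (Or.inl rfl)) (hne1 _ (Or.inr rfl)))
  have h12 : θ₁⁻¹ = θ₂ := (hinvmem θ₁ (Or.inl rfl)).resolve_left fun h =>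
    hsq1 (by rw [sq]; exact mul_eq_one_iff_eq_inv.2 h.symm)
  refine ⟨θ₁, hsq1, fun g => ?_, fun c hc => ?_⟩
  · rw [hfω, show ((θ₁ (zC hodd hcard) : ℂˣ) : ℂ) = ω from (Finset.mem_filter.1 (hmem θ₁ (Or.inl rfl)).1).2]
  · have hs := parity_sum_noncentral hC hodd hcard hω hc
    rw [four, ← Finset.sum_subset (Finset.subset_univ P) (fun θ _ hθ => by
      rw [hout θ hθ, Nat.cast_zero, zero_mul])]
    have e1 : ∀ θ ∈ P, (m θ : ℂ) * ((θ c : ℂˣ) : ℂ) =
        2 * ((θ c : ℂˣ) : ℂ) - if θ ∈ ({θ₁, θ₂} : Finset (C →* ℂˣ)) then ((θ c : ℂˣ) : ℂ) else 0 := by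
      intro θ hθ
      rw [← hset]
      rcases he01 θ hθ with h | h
      · rw [if_neg (by simp [h]), show m θ = 2 by simp only [he] at h; omega]
        push_cast; ring
      · rw [if_pos (Finset.mem_filter.2 ⟨hθ, h⟩), show m θ = 1 by simp only [he] at h; omega]
        push_cast; ring
    rw [Finset.sum_congr rfl e1, Finset.sum_sub_distrib, ← Finset.mul_sum, hs,
      Finset.sum_ite_mem, Finset.inter_eq_right.2 (hset ▸ Finset.filter_subset _ _),
      Finset.sum_pair hne, ← h12, MonoidHom.inv_apply]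
    ring

theorem KB.eq_of_torus (hC : IsCyclic C) (hodd : Odd (Fintype.card F))
    (hcard : Nat.card C = Fintype.card F + 1) {f h : SpecialLinearGroup (Fin 2) F → ℂ}
    (hf : KB f) (hh : KB h) {ω : ℂ} (hω : ω = 1 ∨ ω = -1) (hfω : ∀ g, f (-1 * g) = ω * f g)
    (hhω : ∀ g, h (-1 * g) = ω * h g)
    (e : ∀ c : C, ¬ IsScalar (c : SpecialLinearGroup (Fin 2) F).1 → f c = h c) : f = h := by
  classical
  letI : CommGroup C := hC.commGroup
  haveI : IsMulCommutative C := ⟨⟨mul_comm⟩⟩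
  have h1 : f 1 = h 1 := by
    rw [cusp_apply_one hodd hf.1, cusp_apply_one hodd hh.1, hf.2.1, hf.2.2, hh.2.1, hh.2.2]
  have hres : (fun c : C => f c) = fun c : C => h c := by
    funext c
    by_cases hs : IsScalar (c : SpecialLinearGroup (Fin 2) F).1
    · rcases (scalar_iff _).1 hs with e' | e'
      · rw [e', h1]
      · have a := hfω 1
        have b := hhω 1
        rw [mul_one] at a b
        rw [e', a, b, h1]
    · exact e c hs
  have i1 := inner_torus hodd hcard hf.1 hh.1 hω hfω hhω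
  have i2 := inner_torus hodd hcard hf.1 hf.1 hω hfω hfω
  rw [← hres, i2, classInner_self_irr hf.1.1, hf.2.1, hf.2.2, hh.2.1, hh.2.2] at i1
  apply eq_of_inner_ne_zero hf.1.1 hh.1.1
  intro h0
  rw [h0] at i1
  have : (2 : ℂ) = 0 := by linear_combination i1
  exact two_ne_zero this

/-- Every regular character of the torus gives a cuspidal character. -/
theorem exists_KB_torus (hC : IsCyclic C) (hodd : Odd (Fintype.card F))
    (hcard : Nat.card C = Fintype.card F + 1) (θ : C →* ℂˣ) (hθ : θ ^ 2 ≠ 1) :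
    ∃ f : SpecialLinearGroup (Fin 2) F → ℂ, KB f ∧
      (∀ g, f (-1 * g) = ((θ (zC hodd hcard) : ℂˣ) : ℂ) * f g) ∧
      ∀ c : C, ¬ IsScalar (c : SpecialLinearGroup (Fin 2) F).1 →
        f c = -(((θ c : ℂˣ) : ℂ) + ((θ c : ℂˣ)⁻¹ : ℂˣ)) := by
  classical
  letI : CommGroup C := hC.commGroup
  haveI : Finite (C →* ℂˣ) := cyc_finite_hom
  letI : Fintype (C →* ℂˣ) := Fintype.ofFinite _
  let _ : Fintype (IrrCharacter (SpecialLinearGroup (Fin 2) F)) := Fintype.ofFinite _
  set B := Finset.univ.filter fun χ : IrrCharacter (SpecialLinearGroup (Fin 2) F) =>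
    KB (χ : SpecialLinearGroup (Fin 2) F → ℂ) with hB
  choose th h2 hz hv using fun χ : B => KB.torus hC hodd hcard (Finset.mem_filter.1 χ.2).2
  set D := Finset.univ.filter fun θ : C →* ℂˣ => θ ^ 2 ≠ 1 with hD
  have key : ∀ (χ : B) (φ : C →* ℂˣ), φ = th χ ∨ φ = (th χ)⁻¹ →
      (∀ g, (χ.1.1) (-1 * g) = ((φ (zC hodd hcard) : ℂˣ) : ℂ) * χ.1.1 g) ∧
      ∀ c : C, ¬ IsScalar (c : SpecialLinearGroup (Fin 2) F).1 →
        χ.1.1 c = -(((φ c : ℂˣ) : ℂ) + ((φ c : ℂˣ)⁻¹ : ℂˣ)) := by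
    rintro χ φ (rfl | rfl)
    · exact ⟨hz χ, hv χ⟩
    · refine ⟨fun g => ?_, fun c hc => ?_⟩
      · rw [hz χ g, MonoidHom.inv_apply, ← map_inv, inv_eq_of_mul_eq_one_right (zC_sq hodd hcard)]
      · rw [hv χ c hc, MonoidHom.inv_apply, inv_inv, add_comm]
  have hinj : ∀ χ χ' : B, ∀ φ : C →* ℂˣ, (φ = th χ ∨ φ = (th χ)⁻¹) → (φ = th χ' ∨ φ = (th χ')⁻¹) →
      χ = χ' := by
    intro χ χ' φ h h'
    obtain ⟨a, b⟩ := key χ φ h
    obtain ⟨a', b'⟩ := key χ' φ h'
    exact Subtype.ext (Subtype.ext (KB.eq_of_torus hC hodd hcard (Finset.mem_filter.1 χ.2).2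
      (Finset.mem_filter.1 χ'.2).2 (theta_z hodd hcard φ) a a' fun c hc => by rw [b c hc, b' c hc]))
  have hBc : B.card * 2 = Fintype.card F - 1 := by
    rw [← (counts_odd hodd).2.1, nK_eq_sum, hB, Finset.card_filter, mul_comm]
  have hne : ∀ χ : B, th χ ≠ (th χ)⁻¹ := fun χ e => h2 χ (by rw [sq]; exact mul_eq_one_iff_eq_inv.2 e)
  set U := (Finset.univ : Finset B).biUnion fun χ => {th χ, (th χ)⁻¹} with hU
  have hUD : U ⊆ D := by
    intro φ hφ
    simp only [U, Finset.mem_biUnion, Finset.mem_insert, Finset.mem_singleton] at hφ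
    obtain ⟨χ, -, rfl | rfl⟩ := hφ
    · exact Finset.mem_filter.2 ⟨Finset.mem_univ _, h2 χ⟩
    · refine Finset.mem_filter.2 ⟨Finset.mem_univ _, fun e => h2 χ (MonoidHom.ext fun c => ?_)⟩
      have e' := congrArg (fun φ : C →* ℂˣ => φ c) e
      simpa [inv_eq_one] using e'
  have hUc : U.card = Fintype.card F - 1 := by
    rw [hU, Finset.card_biUnion, Finset.sum_congr rfl (g := fun _ => 2) fun χ _ => Finset.card_pair (hne χ),
      Finset.sum_const, Finset.card_univ, Fintype.card_coe, smul_eq_mul, hBc]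
    intro χ _ χ' _ hcc
    refine Finset.disjoint_left.2 fun φ h h' => hcc (hinj χ χ' φ ?_ ?_)
    · simpa using h
    · simpa using h'
  have hDc : D.card ≤ Fintype.card F - 1 := by
    have e := Finset.card_filter_add_card_filter_not (s := (Finset.univ : Finset (C →* ℂˣ)))
      (fun θ => θ ^ 2 ≠ 1)
    have e2 : (Finset.univ.filter fun θ : C →* ℂˣ => ¬ θ ^ 2 ≠ 1).card = 2 := by
      rw [← Fintype.card_subtype, ← Nat.card_eq_fintype_card]
      simp only [not_not]
      rw [cyc_card_sq_one, Nat.card_eq_two_iff]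
      refine ⟨⟨1, one_pow 2⟩, ⟨zC hodd hcard, by rw [sq]; exact zC_sq hodd hcard⟩,
        fun e => neg_one_ne_one hodd (congrArg (fun x => ((x.1 : C) : SpecialLinearGroup (Fin 2) F)) e).symm, ?_⟩
      rw [Set.eq_univ_iff_forall]
      rintro ⟨c, hc⟩
      have hs := scalar_of_sq_eq_one hodd
        (show (c : SpecialLinearGroup (Fin 2) F) * c = 1 from congrArg Subtype.val ((sq c).symm.trans hc))
      rcases (scalar_iff _).1 hs with h | h
      · exact Or.inl (Subtype.ext (Subtype.ext h))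
      · exact Or.inr (Subtype.ext (Subtype.ext h))
    rw [e2, Finset.card_univ, ← Nat.card_eq_fintype_card (α := C →* ℂˣ), cyc_card_hom, hcard] at e
    simp only [hD]
    omega
  have hUeq : U = D := Finset.eq_of_subset_of_card_le hUD (hUc ▸ hDc)
  have : θ ∈ U := hUeq ▸ Finset.mem_filter.2 ⟨Finset.mem_univ _, hθ⟩
  simp only [U, Finset.mem_biUnion, Finset.mem_insert, Finset.mem_singleton] at this
  obtain ⟨χ, -, hc⟩ := this
  exact ⟨χ.1.1, (Finset.mem_filter.1 χ.2).2, key χ θ hc⟩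

end Cfsg.Agent.KnownA.GL2
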